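import Mathlib
import Cfsg.Agent.PLocal.FF7
import Cfsg.Agent.PLocal.Replace

/-! Abelian (not necessarily elementary) best offenders are generated by transvections. -/

set_option autoImplicit false

namespace Cfsg.Agent.H4J

open Subgroup Cfsg Cfsg.Agent.PLocal
open scoped commutatorElement

variable {G : Type*} [Group G] [Finite G] {p : ℕ} [hp : Fact p.Prime]

theorem exists_fix_pow {U : Subgroup G} (hU : IsElementaryAbelian p U) {b : G}
    (hb : IsPGroup p (zpowers b)) (hn : b ∈ normalizer (U : Set G))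
    (hc : ¬ U ≤ centralizer ({b} : Set G)) :
    ∃ u ∈ U, u * b ≠ b * u ∧ u * b ^ p = b ^ p * u := by
  have hbn : zpowers b ≤ normalizer (U : Set G) := (zpowers_le (H := normalizer (U : Set G))).2 hn
  have hP : IsPGroup p ↥(U ⊔ zpowers b) :=
    IsPGroup.to_sup_of_normal_left' (LocalEven.isPGroup_of_elemAb hU) hb hbn
  obtain ⟨u, hu, hun, huN⟩ := exists_mem_normalizer_not_mem (S := U ⊔ zpowers b) (B := U)
    (N := (U ⊔ zpowers b) ⊓ centralizer ({b} : Set G)) hP le_sup_left inf_le_left
    (inf_le_left.trans (sup_le le_normalizer hbn)) (fun h => hc (h.trans inf_le_right))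
  refine ⟨u, hu, fun e => huN ⟨mem_sup_left hu, mem_centralizer_singleton_iff.2 e⟩, ?_⟩
  have h1 : u * b * u⁻¹ ∈ (U ⊔ zpowers b) ⊓ centralizer ({b} : Set G) :=
    LocalEven.conj_mem_of_mem_normalizer hun
      ⟨mem_sup_right (mem_zpowers b), mem_centralizer_singleton_iff.2 rfl⟩
  have h2 : Commute (u * b * u⁻¹) b := mem_centralizer_singleton_iff.1 h1.2
  have h3 : u * b * u⁻¹ * b⁻¹ ∈ U := by
    have := U.mul_mem hu (LocalEven.conj_mem_of_mem_normalizer hn (U.inv_mem hu))
    simpa [mul_assoc] using this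
  have h4 := hU.2 _ h3
  rw [h2.inv_right.mul_pow, conj_pow, inv_pow, mul_inv_eq_one, mul_inv_eq_iff_eq_mul] at h4
  exact h4

variable {V H Q A : Subgroup G}

theorem wb_step (h : FFSetup p V H Q) (hA : IsBestOffenderOn 0 V A) {C : Subgroup G} (hCA : C ≤ A)
    (hc : Nat.card A ≤ Nat.card C * p)
    (hlt : V ⊓ centralizer (A : Set G) < V ⊓ centralizer (C : Set G)) : IsBestOffenderOn 0 V C := by
  have hle : p * Nat.card ↥(V ⊓ centralizer (A : Set G)) ≤
      Nat.card ↥(V ⊓ centralizer (C : Set G)) := by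
    obtain ⟨m, hm⟩ := IsPGroup.iff_card.1 (h.pV.to_le (inf_le_left (b := centralizer (A : Set G))))
    obtain ⟨n, hn⟩ := IsPGroup.iff_card.1 (h.pV.to_le (inf_le_left (b := centralizer (C : Set G))))
    have := Core.card_lt_of_lt hlt
    rw [hm, hn] at this ⊢
    rw [← pow_succ']
    exact Nat.pow_le_pow_right hp.out.pos ((Nat.pow_lt_pow_iff_right hp.out.one_lt).1 this)
  refine ⟨fun B hB => (hA.1 B (hB.trans hCA)).trans ?_, (commutator_mono hCA hCA).trans hA.2.1,
    fun a _ => by rw [pow_zero]; exact one_mem _⟩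
  calc _ ≤ Nat.card C * p * Nat.card ↥(V ⊓ centralizer (A : Set G)) := Nat.mul_le_mul_right _ hc
    _ ≤ _ := by rw [mul_assoc]; exact Nat.mul_le_mul_left _ hle

omit [Finite G] hp in
theorem wb_comm (h : FFSetup p V H Q) (hAH : A ≤ H) (hA : IsBestOffenderOn 0 V A) :
    A ≤ centralizer (A : Set G) := by
  rw [Core.le_centralizer_iff_commutator_eq_bot]
  exact eq_bot_of_le_centralizer h.faith (LocalEven.commutator_le_of_le hAH hAH) hA.2.1

theorem wb_hyper (h : FFSetup p V H Q) (hAH : A ≤ H) (hAp : IsPGroup p A)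
    (hA : IsBestOffenderOn 0 V A) (hA1 : A ≠ ⊥) :
    ∃ C : Subgroup G, C < A ∧ Nat.card A ≤ Nat.card C * p ∧ IsBestOffenderOn 0 V C := by
  have hAQ : A ≤ normalizer (Q : Set G) := hAH.trans h.qnorm
  have hAV : A ≤ normalizer (V : Set G) := hAH.trans h.norm
  have hAA : A ≤ centralizer (A : Set G) := wb_comm h hAH hA
  have hnc : ¬ Q ≤ centralizer (A : Set G) := fun hc =>
    hA1 (h.bot_of_centralizes hAH hAp (le_centralizer_iff.1 hc))
  obtain ⟨B, hBA, ⟨b, hb, hBb⟩, hB⟩ : ∃ B : Subgroup G, B ≤ A ∧ (∃ b ∈ A, B ⊔ zpowers b = A) ∧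
      ¬ Q ⊓ centralizer (B : Set G) ≤ centralizer (A : Set G) := by
    by_contra hcon
    push Not at hcon
    exact hnc (Core.le_of_centralizers_cocyclic (le_centralizer_iff_isMulCommutative.1 hAA) hAQ
      (coprime_card_of_isPGroup hAp h.qcop) hcon)
  have hnorm : ∀ D : Subgroup G, D ≤ A → A ≤ normalizer (D : Set G) := fun D hD =>
    (le_centralizer_iff.1 (hD.trans hAA)).trans (centralizer_le_normalizer _)
  have hAB : A ≤ normalizer (B : Set G) := hnorm B hBA
  have hne : ¬ V ⊓ centralizer (B : Set G) ≤ centralizer (A : Set G) := by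
    intro e
    set R := Q ⊓ centralizer (B : Set G) with hR
    have hAR : A ≤ normalizer (R : Set G) :=
      Core.le_normalizer_inf hAQ (Core.le_normalizer_centralizer hAB)
    have hRR : ⁅R, A⁆ ≤ R := LocalEven.commutator_le_left_of_le_normalizer hAR
    have hRH : R ≤ H := inf_le_left.trans h.qle
    have hRn : R ≤ normalizer ((V ⊓ centralizer (B : Set G) : Subgroup G) : Set G) :=
      Core.le_normalizer_inf (hRH.trans h.norm)
        (Core.le_normalizer_centralizer (inf_le_right.trans (centralizer_le_normalizer _)))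
    have hAc : A ≤ centralizer ((V ⊓ centralizer (B : Set G) : Subgroup G) : Set G) :=
      le_centralizer_iff.1 e
    have h1 := Core.commutator_le_centralizer_of_normalizes hRn hAc
    have h2 : ⁅R, A⁆ ≤ centralizer (V : Set G) := by
      refine Core.p_times_q (hAp.to_le hBA)
        (Nat.Coprime.coprime_dvd_left (card_dvd_of_le (hRR.trans inf_le_left)) h.qcop) h.pV
        (le_centralizer_iff.1 (hRR.trans inf_le_right)) (hBA.trans hAV)
        ((hRR.trans hRH).trans h.norm) (le_centralizer_iff.1 h1)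
    have h3 := eq_bot_of_le_centralizer h.faith (hRR.trans hRH) h2
    exact hB (Core.le_centralizer_iff_commutator_eq_bot'.2 h3)
  have hzb : zpowers b ≤ A := (zpowers_le (H := A)).2 hb
  obtain ⟨u, hu, hub, hup⟩ := exists_fix_pow (U := V ⊓ centralizer (B : Set G))
    (LocalEven.elemAb_of_le h.ea inf_le_left) (hAp.to_le hzb)
    (Core.le_normalizer_inf hAV (Core.le_normalizer_centralizer hAB) hb) (fun hc => hne (by
      rw [← hBb, le_centralizer_iff]
      refine sup_le (le_centralizer_iff.1 inf_le_right) ((zpowers_le (H := centralizer _)).2 ?_)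
      exact mem_centralizer_iff.2 fun x hx => mem_centralizer_singleton_iff.1 (hc hx)))
  have hzp : zpowers (b ^ p) ≤ zpowers b := (zpowers_le (H := zpowers b)).2 (pow_mem (mem_zpowers b) p)
  have hCA : B ⊔ zpowers (b ^ p) ≤ A := sup_le hBA (hzp.trans hzb)
  have huC : u ∈ centralizer ((B ⊔ zpowers (b ^ p) : Subgroup G) : Set G) := by
    have : B ⊔ zpowers (b ^ p) ≤ centralizer ({u} : Set G) :=
      sup_le (fun x hx => mem_centralizer_singleton_iff.2 (hu.2 x hx))
        ((zpowers_le (H := centralizer _)).2 (mem_centralizer_singleton_iff.2 hup.symm))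
    exact mem_centralizer_iff.2 fun x hx => mem_centralizer_singleton_iff.1 (this hx)
  have huA : u ∉ centralizer (A : Set G) := fun h => hub (h b hb).symm
  have hcard : Nat.card A ≤ Nat.card ↥(B ⊔ zpowers (b ^ p)) * p := by
    have h1 := Core.card_sup_mul_card_inf (N := B ⊔ zpowers (b ^ p)) (H := zpowers b)
      (hzb.trans (hnorm _ hCA))
    rw [sup_assoc, sup_eq_right.2 hzp, hBb, Nat.card_zpowers] at h1
    have h2 : orderOf b ≤ p * orderOf (b ^ p) := Nat.le_of_dvd
      (Nat.mul_pos hp.out.pos (orderOf_pos _))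
      (orderOf_dvd_of_pow_eq_one (by rw [pow_mul, pow_orderOf_eq_one]))
    have h3 : orderOf (b ^ p) ≤ Nat.card ↥((B ⊔ zpowers (b ^ p)) ⊓ zpowers b) := by
      rw [← Nat.card_zpowers]; exact card_le_of_le (le_inf le_sup_right hzp)
    refine Nat.le_of_mul_le_mul_right ?_
      (Nat.card_pos (α := ↥((B ⊔ zpowers (b ^ p)) ⊓ zpowers b)))
    rw [h1, mul_assoc]
    exact Nat.mul_le_mul_left _ (h2.trans (Nat.mul_le_mul_left _ h3))
  refine ⟨B ⊔ zpowers (b ^ p), lt_of_le_of_ne hCA fun e => huA (e ▸ huC), hcard,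
    wb_step h hA hCA hcard (lt_of_le_of_ne
      (inf_le_inf_left _ (centralizer_le (SetLike.coe_subset_coe.2 hCA))) fun e => huA ?_)⟩
  exact (e.ge ⟨hu.1, huC⟩).2

theorem wb_tv (h : FFSetup p V H Q) (hAH : A ≤ H) (hAp : IsPGroup p A)
    (hA : IsBestOffenderOn 0 V A) (hA1 : A ≠ ⊥) : ∃ T ≤ A, IsTv p V T := by
  induction hn : Nat.card A using Nat.strong_induction_on generalizing A with
  | _ n ih =>
    subst hn
    obtain ⟨C, hC, hc, hCb⟩ := wb_hyper h hAH hAp hA hA1
    by_cases h1 : C = ⊥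
    · rw [h1, card_bot, one_mul] at hc
      have h2 : Nat.card A = p := by
        obtain ⟨m, hm⟩ := IsPGroup.iff_card.1 hAp
        have h3 : m ≠ 0 := by
          rintro rfl
          exact hA1 (card_eq_one.1 (by simpa using hm))
        refine le_antisymm hc (hm ▸ Nat.le_self_pow h3 p)
      have hea := BG.Rank.elem_of_card_prime h2
      exact ⟨A, le_rfl, h.tv_of_card hAH ⟨hA.1, hA.2.1, fun a ha => by
        rw [hea.2 a ha]; exact one_mem _⟩ h2⟩
    · obtain ⟨T, hT, hT'⟩ := ih _ (Core.card_lt_of_lt hC) (hC.le.trans hAH) (hAp.to_le hC.le) hCb h1 rfl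
      exact ⟨T, hT.trans hC.le, hT'⟩

theorem wb_le (h : FFSetup p V H Q) (hAH : A ≤ H) (hAp : IsPGroup p A)
    (hA : IsBestOffenderOn 0 V A) {L : Subgroup G} (hL : ∀ T : Subgroup G, T ≤ A → IsTv p V T → T ≤ L) :
    A ≤ L := by
  induction hn : Nat.card A using Nat.strong_induction_on generalizing A with
  | _ n ih =>
    subst hn
    by_cases hA1 : A = ⊥
    · rw [hA1]; exact bot_le
    obtain ⟨T, hTA, hT⟩ := wb_tv h hAH hAp hA hA1
    have hTH := hTA.trans hAH
    have hAA : A ≤ centralizer (A : Set G) := wb_comm h hAH hA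
    have hAT : A ≤ normalizer (T : Set G) :=
      (le_centralizer_iff.1 (hTA.trans hAA)).trans (centralizer_le_normalizer _)
    set W := ⁅V, ⁅Q, T⁆ ⊔ T⁆ with hW
    have hAW : A ≤ normalizer (W : Set G) :=
      LocalEven.le_normalizer_commutator (hAH.trans h.norm) (LocalEven.le_normalizer_sup
        (LocalEven.le_normalizer_commutator (hAH.trans h.qnorm) hAT) hAT)
    have hTW : T ⊓ centralizer (W : Set G) = ⊥ :=
      le_bot_iff.1 (h.faith_tvE hTH ▸ inf_le_inf_right _ le_sup_right)
    obtain ⟨ψ, hψ, -⟩ := exists_plane_hom (h.ea_commV (h.tvE_le hTH)) (h.card_commV_tvE hTH hT) hAW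
      (LocalEven.le_pElementClosure hAp le_rfl)
    have hc : Nat.card A ≤ Nat.card ↥(A ⊓ centralizer (W : Set G)) * p := by
      have e : ψ.ker = (centralizer (W : Set G)).subgroupOf A := by
        ext g; rw [MonoidHom.mem_ker, hψ, mem_subgroupOf]
      have h1 : Nat.card ψ.range ∣ p * (p ^ 2 - 1) := card_SL2_zmod (p := p) ▸ card_subgroup_dvd_card _
      obtain ⟨m, hm⟩ := IsPGroup.iff_card.1 (hAp.of_surjective _ ψ.rangeRestrict_surjective)
      have h2 : Nat.Coprime (p ^ m) (p ^ 2 - 1) := by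
        refine Nat.Coprime.pow_left _ (Nat.Coprime.coprime_dvd_left (dvd_pow_self p two_ne_zero) ?_)
        exact (Nat.coprime_self_sub_right (Nat.one_le_pow _ _ hp.out.pos)).2 (Nat.coprime_one_right _)
      rw [hm] at h1
      have h3 := Nat.le_of_dvd hp.out.pos (h2.dvd_of_dvd_mul_right h1)
      rw [← hm, ← index_ker, e] at h3
      rw [inf_comm, ← Core.card_inf_mul_relIndex (centralizer (W : Set G)) A]
      exact Nat.mul_le_mul_left _ h3
    have hnT : ¬ T ≤ centralizer (W : Set G) := fun e => hT.ne_bot (by rwa [inf_eq_left.2 e] at hTW)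
    have hlt : A ⊓ centralizer (W : Set G) < A :=
      lt_of_le_of_ne inf_le_left fun e => hnT (hTA.trans (e.ge.trans inf_le_right))
    have hb : IsBestOffenderOn 0 V (A ⊓ centralizer (W : Set G)) := by
      refine wb_step h hA inf_le_left hc (lt_of_le_of_ne
        (inf_le_inf_left _ (centralizer_le (SetLike.coe_subset_coe.2 inf_le_left))) fun e => ?_)
      have h1 : W ≤ V ⊓ centralizer ((A ⊓ centralizer (W : Set G) : Subgroup G) : Set G) :=
        le_inf (h.commV_le (h.tvE_le hTH)) (le_centralizer_iff.1 inf_le_right)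
      rw [← e] at h1
      exact hnT (hTA.trans (le_centralizer_iff.1 (h1.trans inf_le_right)))
    have h1 := ih _ (Core.card_lt_of_lt hlt) (hlt.le.trans hAH) (hAp.to_le hlt.le) hb
      (fun T hT => hL T (hT.trans hlt.le)) rfl
    have h2 : T ⊔ A ⊓ centralizer (W : Set G) = A := by
      refine eq_of_le_of_card_ge (sup_le hTA inf_le_left) ?_
      have := Core.card_sup_mul_card_inf (N := T) (H := A ⊓ centralizer (W : Set G))
        (inf_le_left.trans hAT)
      rw [← inf_assoc, inf_eq_left.2 hTA, hTW, card_bot, mul_one, hT.1] at this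
      rw [this, mul_comm]; exact hc
    rw [← h2]
    exact sup_le (hL T hTA hT) h1

end Cfsg.Agent.H4J
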