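import Mathlib
import Cfsg.Agent.H4J.KnA

/-! Knapp's theorem on alternating local actions. -/

set_option autoImplicit false
set_option linter.unusedSectionVars false

namespace Cfsg.Agent.H4J

open Subgroup Cfsg Cfsg.Agent.LocalEven Equiv Cfsg.Agent.Perm

variable {G : Type*} [Group G] [Finite G]
  {α β : Type*} [Fintype α] [DecidableEq α] [Fintype β] [DecidableEq β]

/-- The two-sided configuration. -/
structure Kn (H H' B A A' : Subgroup G) (φ : H →* Perm α) (pt : α) (ψ : H' →* Perm β) (pt' : β) :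
    Prop where
  pp : PP H H'
  l : Pt H B A φ pt
  r : Pt H' B A' ψ pt'
  card : Nat.card α = Nat.card β

theorem card_alt_eq (h : Nat.card α = Nat.card β) (h5 : 5 ≤ Nat.card α) :
    Nat.card (alternatingGroup α) = Nat.card (alternatingGroup β) := by
  have h1 := two_mul_alt h5
  have h2 := two_mul_alt (h ▸ h5 : 5 ≤ Nat.card β)
  rw [← h] at h2
  omega

theorem nilp_fit (X : Subgroup G) : Group.IsNilpotent ((fittingSubgroup X).map X.subtype) := by
  haveI := Core.fitting_nilpotent (G := X)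
  exact Group.nilpotent_of_surjective _ (X.subtype.subgroupMap_surjective _)

namespace Kn

variable {H H' B A A' : Subgroup G} {φ : H →* Perm α} {pt : α} {ψ : H' →* Perm β} {pt' : β}

theorem symm (h : Kn H H' B A A' φ pt ψ pt') : Kn H' H B A' A ψ pt' φ pt :=
  ⟨h.pp.symm, h.r, h.l, h.card.symm⟩

theorem fit_le (h : Kn H H' B A A' φ pt ψ pt') :
    (fittingSubgroup A).map A.subtype ≤ (fittingSubgroup A').map A'.subtype := by
  have h1 : B ≤ normalizer (((fittingSubgroup A).map A.subtype : Subgroup G) : Set G) :=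
    (h.l.leB.trans h.l.toKr.norm).trans
      (Comp2.normalizer_le_normalizer_map_subtype_of_characteristic _)
  exact Comp2.le_fitting_map_subtype (h.r.lc_res.le_of_nilpotent
    ((map_subtype_le _).trans h.l.AB) h1 (nilp_fit A)) (h.r.AB.trans h1) (nilp_fit A)

theorem nil_bot (h : Kn H H' B A A' φ pt ψ pt') {N : Subgroup G} (hN : N ≤ B)
    (hn : B ≤ normalizer (N : Set G)) (hc : Group.IsNilpotent N) : N = ⊥ := by
  have h1 : (fittingSubgroup A).map A.subtype = ⊥ := h.pp.bot_of_normal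
    ((map_subtype_le _).trans h.l.le)
    (h.l.toKr.norm.trans (Comp2.normalizer_le_normalizer_map_subtype_of_characteristic _))
    (le_antisymm h.fit_le h.symm.fit_le ▸
      h.r.toKr.norm.trans (Comp2.normalizer_le_normalizer_map_subtype_of_characteristic _))
  exact le_bot_iff.1 (h1 ▸ Comp2.le_fitting_map_subtype (h.l.lc_res.le_of_nilpotent hN hn hc)
    (h.l.AB.trans hn) hc)

theorem cent_disj (h : Kn H H' B A A' φ pt ψ pt') : (H ⊓ centralizer (A : Set G)) ⊓ A = ⊥ := by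
  have h1 := h.l.leB.trans h.l.toKr.norm
  refine h.nil_bot (inf_le_right.trans h.l.AB) (le_normalizer_inf (le_normalizer_inf
    (h.l.leB.trans le_normalizer) (le_normalizer_centralizer h1)) h1)
    (Comp2.isNilpotent_of_le_centralizer
      ((inf_le_left.trans inf_le_right).trans (centralizer_le inf_le_right)))

theorem cent_norm (h : Kn H H' B A A' φ pt ψ pt') :
    H ≤ normalizer ((H ⊓ centralizer (A : Set G) : Subgroup G) : Set G) :=
  le_normalizer_inf le_normalizer (le_normalizer_centralizer h.l.toKr.norm)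

theorem cent_alt_le (h : Kn H H' B A A' φ pt ψ pt') (hC : H ⊓ centralizer (A : Set G) ≠ ⊥) :
    alternatingGroup α ≤ im φ (H ⊓ centralizer (A : Set G)) :=
  (h.l.toLc.dich inf_le_left h.cent_norm).resolve_left fun e =>
    hC ((inf_eq_left.2 e).symm.trans h.cent_disj)

theorem layer_eq (h : Kn H H' B A A' φ pt ψ pt') (hC : H ⊓ centralizer (A : Set G) = ⊥) :
    (layer B).map B.subtype = (layer A).map A.subtype := by
  have h1 := h.l.leB.trans h.l.toKr.norm
  refine le_antisymm (Comp2.layer_map_subtype_le_iff.2 fun K hK hc => ?_)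
    (Comp2.layer_map_subtype_le_iff.2 fun K hK hc => Comp2.le_layer_map_subtype
      (hK.trans h.l.AB) (Comp2.component_subgroupOf_trans hK h.l.AB hc
        (Normal.isSubnormal (normal_subgroupOf_of_le_normalizer h1))))
  rcases Comp2.component_in_le_or_commutator_eq_bot_of_normalizes hK hc h.l.AB (hK.trans h1)
    with h2 | h2
  · exact Comp2.le_layer_map_subtype h2 (Comp2.component_subgroupOf_of_le h2 h.l.AB hc)
  · have h3 : K = ⊥ := le_bot_iff.1 (hC ▸ le_inf (hK.trans h.l.leB)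
      (LocalEven.commutator_eq_bot_iff.1 h2))
    exact h3 ▸ bot_le

theorem not_both (h : Kn H H' B A A' φ pt ψ pt') (hC : H ⊓ centralizer (A : Set G) = ⊥)
    (hC' : H' ⊓ centralizer (A' : Set G) = ⊥) : False := by
  have h1 : (layer B).map B.subtype = ⊥ := h.pp.bot_of_normal ((map_subtype_le _).trans h.l.leB)
    (h.layer_eq hC ▸
      h.l.toKr.norm.trans (Comp2.normalizer_le_normalizer_map_subtype_of_characteristic _))
    (h.symm.layer_eq hC' ▸
      h.r.toKr.norm.trans (Comp2.normalizer_le_normalizer_map_subtype_of_characteristic _))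
  have h2 : (fittingSubgroup B).map B.subtype = ⊥ := h.nil_bot (map_subtype_le _)
    (Comp2.le_normalizer_map_subtype_of_normal _) (nilp_fit B)
  have h3 := Comp2.inf_centralizer_genFitting_map_le B
  rw [Comp2.genFitting_map_subtype, h1, h2, bot_sup_eq, centralizer_bot', inf_top_eq] at h3
  have h4 := (card_le_of_le (h.l.lc_res.alt.trans (Kr.im_self h.l.res).ge)).trans
    (card_im_le h.l.res (le_refl B))
  have h5 := fact_lt_alt h.l.lc_res.five
  have h6 := Nat.factorial_pos (Nat.card {x // x ≠ pt} - 1)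
  have h7 : Nat.card B = 1 := by rw [le_bot_iff.1 h3, card_bot]
  omega

theorem cent_ne_of (h : Kn H H' B A A' φ pt ψ pt') (hC : H ⊓ centralizer (A : Set G) ≠ ⊥) :
    H' ⊓ centralizer (A' : Set G) ≠ ⊥ := by
  intro hC'
  have hCa := h.cent_alt_le hC
  set C := H ⊓ centralizer (A : Set G) with hCdef
  let D₀ : Subgroup G := C ⊓ ((alternatingGroup α).comap φ).map H.subtype
  have a1 : D₀ ≤ H := inf_le_left.trans inf_le_left
  have a2 : im φ D₀ = alternatingGroup α := by
    refine le_antisymm ?_ fun σ hσ => ?_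
    · rintro _ ⟨y, ⟨-, z, hz, e⟩, rfl⟩
      rw [← Subtype.ext e]
      exact hz
    · obtain ⟨c, hc, rfl⟩ := hCa hσ
      exact ⟨c, ⟨hc, c, hσ, rfl⟩, rfl⟩
  have a3 : D₀ ⊓ A = ⊥ := le_bot_iff.1 (h.cent_disj ▸ inf_le_inf_right A inf_le_left)
  have a4 : Nat.card D₀ = Nat.card (alternatingGroup α) := by
    rw [← h.l.toKr.card_im_of_disj a1 a3, a2]
  have a5 : H ≤ normalizer (D₀ : Set G) :=
    le_normalizer_inf h.cent_norm (Comp2.le_normalizer_map_subtype_of_normal _)
  have a6 : ∀ X ≤ D₀, D₀ ≤ normalizer (X : Set G) → X = ⊥ ∨ X = D₀ := fun X b1 b2 =>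
    (h.l.toLc.dich' (b1.trans a1) a2.ge b2).imp (fun e => le_bot_iff.1 (a3 ▸ le_inf b1 e))
      fun e => eq_of_le_of_card_le b1 (a4.le.trans ((card_le_of_le e).trans
        (card_im_le φ (b1.trans a1))))
  obtain ⟨g, hg⟩ := h.pp.conj
  have b1 : cj g D₀ ≤ H' := hg ▸ cj_mono g a1
  have b2 : H' ≤ normalizer (cj g D₀ : Set G) := by
    rw [← cj_normalizer, ← hg]; exact cj_mono g a5
  have b3 : ∀ Y : Subgroup G, cj g D₀ ≤ normalizer (Y : Set G) →
      cj g D₀ ⊓ Y = ⊥ ∨ cj g D₀ ≤ Y := fun Y hY => by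
    refine (a6 (cj g⁻¹ (cj g D₀ ⊓ Y)) (le_cj_iff.1 inf_le_left) ?_).imp cj_eq_bot.1 fun e => ?_
    · rw [← cj_normalizer]
      exact cj_le_iff.1 (le_normalizer_inf le_normalizer hY)
    · rw [cj_eq_iff, inv_inv] at e
      exact inf_eq_left.1 e
  have b4 : Nat.card (cj g D₀) = Nat.card (alternatingGroup α) := (card_cj g D₀).trans a4
  have b5 := fact_lt_alt h.l.five
  have b6 : cj g D₀ ≠ ⊥ := fun e => by
    rw [e, card_bot] at b4
    have := Nat.factorial_pos (Nat.card α - 1)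
    omega
  generalize cj g D₀ = D at b1 b2 b3 b4 b6
  have c1 : D ≤ A' := (b3 A' (b1.trans h.r.toKr.norm)).resolve_left fun e => b6 (le_bot_iff.1
    (hC' ▸ le_inf b1 (LocalEven.commutator_eq_bot_iff.1 (le_bot_iff.1 (e ▸ le_inf
      (commutator_le_left_of_le_normalizer (h.r.le.trans b2))
      (commutator_le_right_of_le_normalizer (b1.trans h.r.toKr.norm)))))))
  have c2 : D ≤ B := c1.trans h.r.AB
  have c3 : D ≤ A := (b3 A ((c2.trans h.l.leB).trans h.l.toKr.norm)).resolve_left fun e => by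
    have := h.l.lc_res.card_le c2 e
    rw [h.l.card_res] at this
    omega
  exact b6 (h.pp.symm.bot_of_normal b1 b2 (h.l.norm_of hCa
    ((inf_le_right.trans (centralizer_le c3)).trans (centralizer_le_normalizer' D))
    (h.r.leB.trans b2)))

theorem cent_ne (h : Kn H H' B A A' φ pt ψ pt') : H ⊓ centralizer (A : Set G) ≠ ⊥ := fun e =>
  h.symm.cent_ne_of (h.not_both e) e

theorem disj (h : Kn H H' B A A' φ pt ψ pt') : A ⊓ A' = ⊥ := by
  have h1 : B ≤ normalizer ((A ⊓ A' : Subgroup G) : Set G) :=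
    le_normalizer_inf (h.l.leB.trans h.l.toKr.norm) (h.r.leB.trans h.r.toKr.norm)
  exact h.pp.bot_of_normal (inf_le_left.trans h.l.le)
    (h.l.norm_of (h.cent_alt_le h.cent_ne) ((inf_le_right.trans
      (centralizer_le (inf_le_left : A ⊓ A' ≤ A))).trans (centralizer_le_normalizer' _)) h1)
    (h.r.norm_of (h.symm.cent_alt_le h.symm.cent_ne)
      ((inf_le_right.trans (centralizer_le (inf_le_right : A ⊓ A' ≤ A'))).trans
        (centralizer_le_normalizer' _)) h1)

theorem range_alt (h : Kn H H' B A A' φ pt ψ pt') (h1 : φ.range = alternatingGroup α) :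
    ψ.range = alternatingGroup β := by
  obtain ⟨g, hg⟩ := h.pp.conj
  have a1 := h.r.lc_res.card_le h.l.AB h.disj
  have a2 := fact_lt_alt h.r.five
  rw [h.r.card_res] at a1
  have a3 : cj g A ≤ A' := h.r.toLc.le_of_card (hg ▸ cj_mono g h.l.le)
    (by rw [← cj_normalizer, ← hg]; exact cj_mono g h.l.toKr.norm) (by rw [card_cj]; omega)
  have a4 : Nat.card A ≤ Nat.card A' := (card_cj g A).ge.trans (card_le_of_le a3)
  have a5 := LocalEven.card_mul_relIndex h.l.le
  have a6 := LocalEven.card_mul_relIndex h.r.le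
  rw [← h.l.toKr.card_im le_rfl, Kr.im_self, h1, card_alt_eq h.card h.l.five, h.pp.card_eq] at a5
  rw [← h.r.toKr.card_im le_rfl, Kr.im_self] at a6
  refine (eq_of_le_of_card_le h.r.alt (Nat.le_of_mul_le_mul_left ?_
    (Nat.card_pos (α := A')))).symm
  rw [a6, ← a5]
  exact Nat.mul_le_mul_right _ a4

theorem exists_chi (h : Kn H H' B A A' φ pt ψ pt') (hA : A ≠ ⊥) :
    ∃ χ : H →* Perm {y // y ≠ pt'}, (∀ x, φ x = 1 → χ x = 1 → x = 1) ∧
      (∀ σ ∈ alternatingGroup α, ∃ x, φ x = σ ∧ χ x = 1) ∧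
      (∀ τ ∈ alternatingGroup {y // y ≠ pt'}, ∃ x, φ x = 1 ∧ χ x = τ) ∧
      (φ.range = alternatingGroup α → ∀ x, Perm.sign (χ x) = 1) := by
  have hCa := h.cent_alt_le h.cent_ne
  have hAa : alternatingGroup _ ≤ im h.r.res A :=
    (h.r.lc_res.dich h.l.AB (h.l.leB.trans h.l.toKr.norm)).resolve_left fun e =>
      hA ((inf_eq_left.2 e).symm.trans h.disj)
  set C := H ⊓ centralizer (A : Set G) with hCdef
  have wd : ∀ c ∈ C, ∀ c' ∈ C, ∀ b b' : B, c * b = c' * b' → h.r.res b = h.r.res b' := by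
    intro c hc c' hc' b b' e
    have h1 : ((b' * b⁻¹ : B) : G) = c'⁻¹ * c := by
      rw [coe_mul, coe_inv, mul_inv_eq_iff_eq_mul, mul_assoc, e, inv_mul_cancel_left]
    have h2 := h.r.lc_res.mem_of_cent hAa (x := b' * b⁻¹)
      (h1 ▸ (C.mul_mem (C.inv_mem hc') hc).2)
    rw [map_mul, map_inv, mul_inv_eq_one] at h2
    exact h2.symm
  have ex : ∀ x : H, ∃ b : B, ∃ c ∈ C, (x : G) = c * b := fun x =>
    let ⟨c, hc, b, hb, e⟩ := h.l.decomp hCa x.2
    ⟨⟨b, hb⟩, c, hc, e⟩
  choose bb hbb using ex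
  have key : ∀ (x : H) (b : B), ∀ c ∈ C, (x : G) = c * b → h.r.res (bb x) = h.r.res b :=
    fun x b c hc e => let ⟨c', hc', e'⟩ := hbb x; wd c' hc' c hc _ _ (e'.symm.trans e)
  refine ⟨MonoidHom.mk' (fun x => h.r.res (bb x)) fun x y => ?_, fun x h1 h2 => ?_,
    fun σ hσ => ?_, fun τ hτ => ?_, fun h1 x => ?_⟩
  · obtain ⟨c, hc, e⟩ := hbb x
    obtain ⟨c', hc', e'⟩ := hbb y
    rw [← map_mul]
    refine key _ _ (c * (bb x * c' * (bb x : G)⁻¹)) (C.mul_mem hc
      (conj_mem_of_mem_normalizer (h.cent_norm (h.l.leB (bb x).2)) hc')) ?_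
    rw [coe_mul, coe_mul, e']
    nth_rewrite 1 [e]
    group
  · have h3 := (h.l.ker x).1 h1
    have h4 : h.r.res ⟨x, h.l.AB h3⟩ = 1 :=
      (key x ⟨x, h.l.AB h3⟩ 1 C.one_mem (one_mul _).symm).symm.trans h2
    exact Subtype.ext (mem_bot.1 (h.disj ▸ mem_inf.2 ⟨h3, (h.r.lc_res.ker _).1 h4⟩))
  · obtain ⟨c, hc, rfl⟩ := hCa hσ
    exact ⟨c, rfl, (key c 1 c hc (mul_one _).symm).trans (map_one _)⟩
  · obtain ⟨b, hb, rfl⟩ := hAa hτ
    exact ⟨⟨b, h.l.leB b.2⟩, (h.l.ker _).2 hb, key _ b 1 C.one_mem (one_mul _).symm⟩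
  · refine (h.r.sign_res _).trans (Perm.mem_alternatingGroup.1 ?_)
    rw [← h.range_alt h1]
    exact ⟨_, rfl⟩

end Kn

section Classify

variable {X : Type*} [Group X] (θ₁ : X →* Perm α) (θ₂ : X →* Perm β)

theorem mem_range_prod (h1 : ∀ σ ∈ alternatingGroup α, ∃ x, θ₁ x = σ ∧ θ₂ x = 1)
    (h2 : ∀ τ ∈ alternatingGroup β, ∃ x, θ₁ x = 1 ∧ θ₂ x = τ) (x : X) (z : Perm α × Perm β)
    (e1 : Perm.sign z.1 = Perm.sign (θ₁ x)) (e2 : Perm.sign z.2 = Perm.sign (θ₂ x)) :
    z ∈ (θ₁.prod θ₂).range := by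
  obtain ⟨u, hu, hu'⟩ := h1 (z.1 * (θ₁ x)⁻¹) (by simp [Perm.mem_alternatingGroup, e1])
  obtain ⟨v, hv, hv'⟩ := h2 (z.2 * (θ₂ x)⁻¹) (by simp [Perm.mem_alternatingGroup, e2])
  refine ⟨u * v * x, Prod.ext ?_ ?_⟩
  · simp [hu, hv]
  · simp [hu', hv']

theorem classify (inj : ∀ x, θ₁ x = 1 → θ₂ x = 1 → x = 1)
    (h1 : ∀ σ ∈ alternatingGroup α, ∃ x, θ₁ x = σ ∧ θ₂ x = 1)
    (h2 : ∀ τ ∈ alternatingGroup β, ∃ x, θ₁ x = 1 ∧ θ₂ x = τ) :
    ((∀ x, Perm.sign (θ₁ x) = 1) → (∀ x, Perm.sign (θ₂ x) = 1) →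
      Nonempty (X ≃* alternatingGroup α × alternatingGroup β)) ∧
    ((∃ x, Perm.sign (θ₁ x) = -1) → Nonempty (X ≃* Perm α × Perm β) ∨
      Nonempty (X ≃* Perm α × alternatingGroup β) ∨
      Nonempty (X ≃* ((Perm.sign.comp (MonoidHom.fst (Perm α) (Perm β))) *
         (Perm.sign.comp (MonoidHom.snd (Perm α) (Perm β)))).ker)) := by
  have hi : Function.Injective (θ₁.prod θ₂) := (injective_iff_map_eq_one _).2 fun x hx =>
    inj x (congrArg Prod.fst hx) (congrArg Prod.snd hx)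
  have mk : ∀ R : Subgroup (Perm α × Perm β), (θ₁.prod θ₂).range = R → Nonempty (X ≃* R) :=
    fun R e => ⟨(MonoidHom.ofInjective hi).trans (MulEquiv.subgroupCongr e)⟩
  have mr := mem_range_prod θ₁ θ₂ h1 h2
  refine ⟨fun a b => ?_, fun ⟨x, hx⟩ => ?_⟩
  · obtain ⟨e⟩ := mk ((alternatingGroup α).prod (alternatingGroup β)) (le_antisymm
      (by rintro _ ⟨y, rfl⟩; exact ⟨a y, b y⟩)
      fun z hz => mr 1 z (by rw [a]; exact hz.1) (by rw [b]; exact hz.2))
    exact ⟨e.trans (prodEquiv _ _)⟩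
  by_cases h3 : ∃ y, Perm.sign (θ₁ y) = 1 ∧ Perm.sign (θ₂ y) = -1
  · left
    obtain ⟨y, hy, hy'⟩ := h3
    obtain ⟨e⟩ := mk ⊤ (top_le_iff.1 fun z _ => by
      rcases Int.units_eq_one_or (Perm.sign z.1) with a | a <;>
        rcases Int.units_eq_one_or (Perm.sign z.2) with b | b
      · exact mr 1 z (by simp [a]) (by simp [b])
      · exact mr y z (by simp [a, hy]) (by simp [b, hy'])
      · rcases Int.units_eq_one_or (Perm.sign (θ₂ x)) with c | c
        · exact mr x z (by simp [a, hx]) (by simp [b, c])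
        · exact mr (x * y) z (by simp [a, hx, hy]) (by simp [b, c, hy'])
      · rcases Int.units_eq_one_or (Perm.sign (θ₂ x)) with c | c
        · exact mr (x * y) z (by simp [a, hx, hy]) (by simp [b, c, hy'])
        · exact mr x z (by simp [a, hx]) (by simp [b, c]))
    exact ⟨e.trans topEquiv⟩
  right
  have h4 : ∀ y, Perm.sign (θ₁ y) = 1 → Perm.sign (θ₂ y) = 1 := fun y hy =>
    (Int.units_eq_one_or _).resolve_right fun e => h3 ⟨y, hy, e⟩
  have h5 : ∀ y, Perm.sign (θ₁ y) = -1 → Perm.sign (θ₂ y) = Perm.sign (θ₂ x) := fun y hy => by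
    have := h4 (x * y) (by simp [hx, hy])
    rw [map_mul, map_mul] at this
    rcases Int.units_eq_one_or (Perm.sign (θ₂ x)) with c | c <;>
      rcases Int.units_eq_one_or (Perm.sign (θ₂ y)) with d | d <;> simp_all
  rcases Int.units_eq_one_or (Perm.sign (θ₂ x)) with c | c
  · left
    obtain ⟨e⟩ := mk ((⊤ : Subgroup (Perm α)).prod (alternatingGroup β)) (le_antisymm
      (by
        rintro _ ⟨y, rfl⟩
        refine ⟨trivial, ?_⟩
        rcases Int.units_eq_one_or (Perm.sign (θ₁ y)) with a | a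
        · exact h4 y a
        · exact (h5 y a).trans c)
      fun z hz => by
        have b : Perm.sign z.2 = 1 := hz.2
        rcases Int.units_eq_one_or (Perm.sign z.1) with a | a
        · exact mr 1 z (by simp [a]) (by simp [b])
        · exact mr x z (by simp [a, hx]) (by simp [b, c]))
    exact ⟨e.trans ((prodEquiv _ _).trans (MulEquiv.prodCongr topEquiv (MulEquiv.refl _)))⟩
  · right
    refine mk _ (le_antisymm ?_ fun z hz => ?_)
    · rintro _ ⟨y, rfl⟩
      change Perm.sign (θ₁ y) * Perm.sign (θ₂ y) = 1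
      rcases Int.units_eq_one_or (Perm.sign (θ₁ y)) with a | a
      · rw [a, h4 y a, mul_one]
      · rw [a, h5 y a, c]; simp
    · have hz' : Perm.sign z.1 * Perm.sign z.2 = 1 := hz
      rcases Int.units_eq_one_or (Perm.sign z.1) with a | a <;>
        rcases Int.units_eq_one_or (Perm.sign z.2) with b | b
      · exact mr 1 z (by simp [a]) (by simp [b])
      · simp [a, b] at hz'
      · simp [a, b] at hz'
      · exact mr x z (by simp [a, hx]) (by simp [b, c])

end Classify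

end Cfsg.Agent.H4J
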